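import Cfsg.Agent.H279.HT.Three

/-!
# The character of `PSL(3,q)` of degree `q ^ 2 + q + 1`, `9 ∣ q - 1`, for `p = 3` (helper408, S4933, box o.diag)

* `exists_psiL` : a member of the principal `3`-block whose degree has `3`-part `3`, invariant under all automorphisms of
  `3`-power order (induced from the stabilizer of a point; labels `(l, l, l⁻²)`, `l` of order 9).
-/

set_option autoImplicit false

namespace Cfsg.Agent.H408.HT.L3

open Cfsg Subgroup Equiv Matrix
open Cfsg.Agent.ClassicalGeometry.AutPSL.Root Cfsg.Agent.ClassicalGeometry.AutPSL.Auto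
open Cfsg.Agent.ClassicalGeometry.AutPSL.Main
open Cfsg.Agent.CpAut.Psl
open Cfsg.Agent.H755.Sd Cfsg.Agent.H755.Sd.Par Cfsg.Agent.H755.Sd.Syl
open Cfsg.Agent.H279.HT.Num Cfsg.Agent.H279.HT.PslChar Cfsg.Agent.H279.HT.PslAut Cfsg.Agent.H279.HT
open Cfsg.Agent.H316.HT

section
variable {F : Type*} [Field F]

/-- the blocks `{0, 1}`, `{2}` -/
def bb : Fin 3 → Fin 3 := ![0, 0, 2]

theorem bb_eq (j : Fin 3) : bb j = if j = 2 then 2 else 0 := by
  fin_cases j <;> rfl

/-- the labels `(l, l, l⁻²)` -/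
def ss (l : Fˣ →* ℂˣ) : Fin 3 → (Fˣ →* ℂˣ) := ![l, l, (l ^ 2)⁻¹]

theorem ss_of_ne (l : Fˣ →* ℂˣ) {j : Fin 3} (h : j ≠ 2) : ss l j = l := by
  fin_cases j
  · rfl
  · rfl
  · exact absurd rfl h

theorem ss_two (l : Fˣ →* ℂˣ) (x : Fˣ) : ss l 2 x = (l x ^ 2)⁻¹ := rfl

theorem hyp (l : Fˣ →* ℂˣ) : Hyp (F := F) bb (ss l) := ⟨fun i => by fin_cases i <;> rfl, fun c => by
  rw [Fin.prod_univ_three]
  show l c * l c * (l c ^ 2)⁻¹ = 1
  rw [← sq, mul_inv_cancel]⟩

theorem ss_cube {l : Fˣ →* ℂˣ} (hl : ∀ x, l x ^ 9 = 1) (i : Fin 3) (x : Fˣ) : ss l i x ^ 3 = l x ^ 3 := by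
  by_cases h : i = 2
  · subst h
    rw [ss_two, inv_pow, ← pow_mul, inv_eq_iff_mul_eq_one, ← pow_add]
    exact hl x
  · rw [ss_of_ne l h]

/-- Mackey's criterion -/
theorem perm_b {l : Fˣ →* ℂˣ} (hl : ∀ x, l x ^ 9 = 1) (hl1 : ∃ x, l x ^ 3 ≠ 1) {σ : Perm (Fin 3)}
    (h : ∀ t : Fin 3 → Fˣ, ∏ i, t i = 1 → ∏ i, ss l i (t i) = ∏ i, ss l i (t (σ i))) (i : Fin 3) : bb (σ i) = bb i := by
  have h1 : ∀ t : Fin 3 → Fˣ, ∏ i, t i = 1 → ∏ i, ss l (σ⁻¹ i) (t i) = ∏ i, ss l i (t i) := by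
    intro t ht
    rw [h t ht, ← Equiv.prod_comp σ⁻¹ (fun i => ss l i (t (σ i)))]
    refine Finset.prod_congr rfl fun i _ => ?_
    rw [show σ (σ⁻¹ i) = i from σ.apply_symm_apply i]
  have h2 := TD.semi_of_prod (0 : Fin 3) (r := fun i => ss l (σ⁻¹ i)) (r' := fun i => ss l i) h1
  obtain ⟨c, hc⟩ : ∃ c : Fˣ →* ℂˣ, c = ss l (σ⁻¹ 0) * (ss l 0)⁻¹ := ⟨_, rfl⟩
  have h3 : ∀ j x, ss l (σ⁻¹ j) x = c x * ss l j x := by
    intro j x
    have h4 := congrArg (fun f : Fˣ →* ℂˣ => f x) (h2 j)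
    rw [hc]
    exact h4
  have hs2 : σ 2 = 2 := by
    by_contra hne
    have hne' : σ⁻¹ 2 ≠ 2 := by
      intro h5
      apply hne
      have h6 : σ (σ⁻¹ 2) = σ 2 := congrArg σ h5
      rw [show σ (σ⁻¹ 2) = 2 from σ.apply_symm_apply 2] at h6
      exact h6.symm
    obtain ⟨x, hx⟩ := hl1
    apply hx
    have e1 := h3 (σ 2) x
    rw [show σ⁻¹ (σ 2) = 2 from σ.symm_apply_apply 2, ss_of_ne l hne, ss_two] at e1
    have e2 := h3 2 x
    rw [ss_of_ne l hne', ss_two] at e2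
    -- `l⁻² = c l`, `l = c l⁻²`
    have e3 : c x = (l x ^ 2)⁻¹ * (l x)⁻¹ := by rw [e1, mul_inv_cancel_right]
    have e4 : c x = l x * l x ^ 2 := (eq_mul_inv_iff_mul_eq.1 e2).symm
    rw [e3] at e4
    have e5 : l x ^ 6 = 1 := by
      have e6 : (l x * l x ^ 2) * (l x * l x ^ 2) = 1 := by
        nth_rewrite 1 [← e4]
        group
      calc l x ^ 6 = (l x * l x ^ 2) * (l x * l x ^ 2) := by group
        _ = 1 := e6
    have e7 := hl x
    have e8 : l x ^ 9 = l x ^ 6 * l x ^ 3 := by rw [← pow_add]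
    rw [e8, e5, one_mul] at e7
    exact e7
  rw [bb_eq, bb_eq]
  by_cases hi : i = 2
  · rw [hi, hs2]
  · rw [if_neg hi, if_neg]
    intro h5
    apply hi
    exact σ.injective (h5.trans hs2.symm)

/-- the product of the determinants of the blocks -/
theorem prod_Dk {b : Fin 3 → Fin 3} (g : PB F b) :
    ∏ k, Dk k g = Matrix.GeneralLinearGroup.det (g : GL (Fin 3) F) := by
  apply Units.ext
  rw [Units.coe_prod]
  have h1 := Matrix.BlockTriangular.det_fintype (mem_PB.1 g.2)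
  exact h1.symm

theorem Lam_fgl_of {l : Fˣ →* ℂˣ} (hl : ∀ x, l x ^ 9 = 1) {σ : F ≃+* F} {m : ℤ}
    (hm : ∀ x : Fˣ, Units.map (σ : F →* F) x = x ^ m) (h3 : (3 : ℤ) ∣ m - 1) (g : PB F bb)
    (hdet : Matrix.GeneralLinearGroup.det (g : GL (Fin 3) F) = 1) :
    Lam (ss l) (⟨fgl σ (g : GL (Fin 3) F), fgl_mem g.2⟩ : PB F bb) = Lam (ss l) g := by
  obtain ⟨r, hr⟩ := h3
  have hm' : m = 1 + 3 * r := by omega
  rw [Lam_apply, Lam_apply]
  have h1 : ∀ k, ss l k (Dk k (⟨fgl σ (g : GL (Fin 3) F), fgl_mem g.2⟩ : PB F bb)) =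
      ss l k (Dk k g) * (l (Dk k g) ^ 3) ^ r := by
    intro k
    rw [Dk_fgl, hm, map_zpow, hm', _root_.zpow_add, _root_.zpow_one, _root_.zpow_mul]
    congr 2
    exact_mod_cast ss_cube hl k (Dk k g)
  rw [Finset.prod_congr rfl fun k _ => h1 k, Finset.prod_mul_distrib, Finset.prod_zpow, Finset.prod_pow, ← map_prod,
    prod_Dk, hdet, map_one, one_pow, _root_.one_zpow, mul_one]

end

variable {F : Type} [Field F] [Fintype F] {M : Ideal AlgInt}

theorem exists_psiL (h9 : 9 ∣ Fintype.card F - 1) (hM : IsPModular 3 M) :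
    ∃ ψ : IrrCharacter (Matrix.ProjectiveSpecialLinearGroup (Fin 3) F),
      ψ ∈ principalBlock M (Matrix.ProjectiveSpecialLinearGroup (Fin 3) F) ∧
      (charDegree (ψ : Matrix.ProjectiveSpecialLinearGroup (Fin 3) F → ℂ)).factorization 3 = 1 ∧
      ∀ (φ : MulAut (Matrix.ProjectiveSpecialLinearGroup (Fin 3) F)) (k : ℕ), φ ^ 3 ^ k = 1 →
        ∀ g, (ψ : Matrix.ProjectiveSpecialLinearGroup (Fin 3) F → ℂ) (φ g) = (ψ : _ → ℂ) g := by
  classical
  have hp : Fact (Nat.Prime 3) := ⟨Nat.prime_three⟩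
  have hF : 3 ∣ Fintype.card F - 1 := Dvd.dvd.trans (by norm_num) h9
  have hfin : Finite (Matrix.SpecialLinearGroup (Fin 3) F) := inferInstance
  have hfinP : Finite (Matrix.ProjectiveSpecialLinearGroup (Fin 3) F) := Finite.of_surjective _ (pr_surjective (F := F))
  have := Fintype.ofFinite (Matrix.ProjectiveSpecialLinearGroup (Fin 3) F)
  obtain ⟨l, hl, hl1⟩ := Three.exists_char_nine h9
  have hH : Hyp (F := F) bb (ss l) := hyp l
  let G := Matrix.ProjectiveSpecialLinearGroup (Fin 3) F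
  let H : Subgroup G := (QP bb (ss l)).comap (MulAut.conj : G →* MulAut G)
  let lam : H →* ℂˣ := (LamA hH).comp
    { toFun := fun x => ⟨MulAut.conj (x : G), x.2⟩
      map_one' := Subtype.ext (map_one MulAut.conj)
      map_mul' := fun x y => Subtype.ext (map_mul MulAut.conj _ _) }
  have hmem : ∀ g : Matrix.SpecialLinearGroup (Fin 3) F, (pr g : G) ∈ H ↔ g ∈ PS F bb := by
    intro g
    constructor
    · intro h
      have h1 : MulAut.conj (pr g) ∈ QP bb (ss l) := h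
      rw [PslRow.conj_pr] at h1
      exact mem_of_conj h1
    · intro h
      show MulAut.conj (pr g) ∈ QP bb (ss l)
      rw [PslRow.conj_pr]
      exact ⟨_, h, 1, Fix.one, by rw [map_one, mul_one]⟩
  have hlam : ∀ (g : Matrix.SpecialLinearGroup (Fin 3) F) (hg : g ∈ PS F bb),
      lam ⟨pr g, (hmem g).2 hg⟩ = LamS bb (ss l) ⟨g, hg⟩ := by
    intro g hg
    refine LamA_apply hH (α := ⟨MulAut.conj (pr g), (hmem g).2 hg⟩) hg (σ := 1) ?_
    show MulAut.conj (pr g) = _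
    rw [PslRow.conj_pr, map_one, mul_one]
  obtain ⟨χ, h1, h2, h3⟩ := H112.HT.exists_mackey hM H lam (by
      refine ⟨2, MonoidHom.ext fun x => ?_⟩
      show Lam (ss l) _ ^ 3 ^ 2 = 1
      rw [Lam_apply, ← Finset.prod_pow]
      refine Finset.prod_eq_one fun i _ => ?_
      have h9 : ∀ (i : Fin 3) (x : Fˣ), ss l i x ^ 3 ^ 2 = 1 := by
        intro i x
        rw [show 3 ^ 2 = 3 * 3 by norm_num, pow_mul, ss_cube hl, ← pow_mul]
        exact hl x
      exact h9 _ _) (by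
      intro x h
      obtain ⟨g, rfl⟩ := pr_surjective x
      rw [hmem]
      obtain ⟨σ, h6, h7⟩ := exists_mackeyS (F := F) (b := bb) (s := ss l) hH.hs g⁻¹
      have h8 : ∀ i, bb (σ i) = bb i := by
        refine fun i => perm_b hl hl1 (σ := σ) ?_ i
        intro t ht
        obtain ⟨y, hy, hy1, hy2⟩ := h7 t ht
        rw [inv_inv] at hy
        have hy' : g * (y : Matrix.SpecialLinearGroup (Fin 3) F) * g⁻¹ ∈ PS F bb := hy
        have h9 := h ⟨_, (hmem _).2 y.2⟩ ⟨_, (hmem _).2 hy'⟩ (by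
          show (pr (g * (y : Matrix.SpecialLinearGroup (Fin 3) F) * g⁻¹) : G) = _
          rw [map_mul, map_mul, map_inv])
        rw [hlam _ y.2, hlam _ hy'] at h9
        have h10 : LamS bb (ss l) (⟨g * (y : Matrix.SpecialLinearGroup (Fin 3) F) * g⁻¹, hy'⟩ : PS F bb) =
            ∏ i, ss l i (t (σ i)) := by
          rw [← hy2]
          congr 1
          apply Subtype.ext
          show _ = (g⁻¹)⁻¹ * (y : Matrix.SpecialLinearGroup (Fin 3) F) * g⁻¹
          rw [inv_inv]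
        rw [h10] at h9
        rw [← h9]
        exact hy1.symm
      have h11 := h6 h8
      rw [← inv_inv g]
      exact inv_mem h11)
  refine ⟨χ, h1, ?_, ?_⟩
  · rw [h3]
    -- the index
    have h6 : H.comap (pr : Matrix.SpecialLinearGroup (Fin 3) F →* _) = PS F bb := by
      ext g
      rw [mem_comap]
      exact hmem g
    have h7 : H.index = (PS F bb).index := by
      rw [← h6]
      exact (Subgroup.index_comap_of_surjective H pr_surjective).symm
    have h8 := Idx.val_index (F := F) (p := 3) (by norm_num) hF bb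
    have h9 : ∑ k : Fin 3, V 3 (Finset.univ.filter fun i : Fin 3 => bb i = k).card = 0 := by
      refine Finset.sum_eq_zero fun k _ => V_lt ?_
      fin_cases k <;> decide
    have h10 : V 3 3 = 1 := by
      have := V_mul (p := 3) 1
      rw [mul_one, V_lt (p := 3) (m := 1) (by norm_num)] at this
      exact this
    rw [h7, Idx.index_PS bb (by norm_num), Nat.factorization_def _ Nat.prime_three]
    omega
  · intro α k hα
    rw [h2]
    obtain ⟨C, σ, hC, hσ⟩ := PslRow.exists_of_pow (p := 3) (n := 3) (by norm_num) (by norm_num) hα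
    obtain ⟨m, hm, hm3⟩ := Three.exists_exp (p := 3) (by rw [Nat.card_eq_fintype_card]; exact hF) hσ
    let d : Fˣ := Matrix.GeneralLinearGroup.det C
    let g0 : GL (Fin 3) F := dgl (Function.update 1 0 d)
    have hdet : Matrix.GeneralLinearGroup.det g0 = d := by
      apply Units.ext
      show ((g0 : GL (Fin 3) F) : Matrix (Fin 3) (Fin 3) F).det = _
      rw [coe_dgl, Matrix.det_diagonal, ← Units.coe_prod, Finset.prod_update_of_mem (Finset.mem_univ _)]
      simp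
    have hdet2 : ((C * g0⁻¹ : GL (Fin 3) F) : Matrix (Fin 3) (Fin 3) F).det = 1 := by
      have h1 : Matrix.GeneralLinearGroup.det (C * g0⁻¹) = 1 := by
        rw [map_mul, map_inv, hdet, mul_inv_cancel]
      exact congrArg Units.val h1
    let x : Matrix.SpecialLinearGroup (Fin 3) F := ⟨_, hdet2⟩
    have hx : Matrix.SpecialLinearGroup.toGL x = C * g0⁻¹ := by
      apply Units.ext
      rfl
    have hα' : α = MulAut.conj (pr x) * lift (cj g0 * fld σ) := by
      rw [PslRow.conj_pr, hx, ← map_mul, ← mul_assoc, ← map_mul cj, inv_mul_cancel_right]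
      exact hC
    refine fun g => H112.HT.ind_inv H _ α (pr x) ?_ g
    rintro ⟨h, hh⟩
    obtain ⟨y, rfl⟩ := pr_surjective h
    have hy : y ∈ PS F bb := (hmem y).1 hh
    let y' : Matrix.SpecialLinearGroup (Fin 3) F := (cj g0 * fld σ : MulAut (Matrix.SpecialLinearGroup (Fin 3) F)) y
    have hy'1 : Matrix.SpecialLinearGroup.toGL y' = g0 * fgl σ (Matrix.SpecialLinearGroup.toGL y) * g0⁻¹ := by
      apply Units.ext
      rfl
    have hg0 : g0 ∈ PB F bb := dgl_mem _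
    have hy'2 : y' ∈ PS F bb := by
      show Matrix.SpecialLinearGroup.toGL y' ∈ PB F bb
      rw [hy'1]
      exact mul_mem (mul_mem hg0 (fgl_mem hy)) (inv_mem hg0)
    refine ⟨⟨pr y', (hmem y').2 hy'2⟩, ?_, ?_⟩
    · rw [hα']
      rfl
    · congr 1
      rw [hlam y' hy'2, hlam y hy, LamS_apply, LamS_apply]
      have e1 : (⟨Matrix.SpecialLinearGroup.toGL y', hy'2⟩ : PB F bb) =
          ⟨g0, hg0⟩ * ⟨fgl σ (Matrix.SpecialLinearGroup.toGL y), fgl_mem hy⟩ * ⟨g0, hg0⟩⁻¹ := Subtype.ext hy'1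
      have e2 := Lam_fgl_of hl hm hm3 (⟨Matrix.SpecialLinearGroup.toGL y, hy⟩ : PB F bb) (by
        apply Units.ext
        exact y.2)
      refine (congrArg (Lam (ss l)) e1).trans ?_
      rw [map_mul, map_mul, map_inv, mul_comm (Lam (ss l) ⟨g0, hg0⟩), mul_inv_cancel_right]
      exact e2

end Cfsg.Agent.H408.HT.L3
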